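import Cfsg.Agent.TitsQ.TwoD

set_option autoImplicit false
set_option Elab.async false
set_option maxRecDepth 100000
set_option linter.all false

namespace Cfsg.Agent.TitsQ
open Cfsg.Agent.CGT

open Cfsg.Agent.Inv

open Cfsg.Agent.TwC

theorem s_cj1 : cjB 11 x_ts (chainBase [] c2_ls) s_R s_Q1 = true := by decide +kernel
theorem s_cl2 : closB 11 x_ts (chainBase [] c2_ls) [18, 20] s_E s_T2 = true := by decide +kernel
theorem s_cj2 : cjB 11 x_ts (chainBase [] c2_ls) s_R s_Q2 = true := by decide +kernel
theorem s_cl3 : closB 11 x_ts (chainBase [] c2_ls) [18, 20] s_E s_T3 = true := by decide +kernel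
theorem s_cj3 : cjB 11 x_ts (chainBase [] c2_ls) s_R s_Q3 = true := by decide +kernel
theorem s_cl4 : closB 11 x_ts (chainBase [] c2_ls) [18, 20] s_E s_T4 = true := by decide +kernel

end Cfsg.Agent.TitsQ
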