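import Cfsg.Agent.TitsQ.TwoT0
import Cfsg.Agent.TitsQ.TwoT1
import Cfsg.Agent.TitsQ.TwoT2
import Cfsg.Agent.TitsQ.TwoT3

set_option autoImplicit false
set_option Elab.async false
set_option maxRecDepth 100000
set_option linter.all false

namespace Cfsg.Agent.TitsQ
open Cfsg.Agent.CGT

open Cfsg.Agent.Inv

open Cfsg.Agent.TwC

theorem sc_sound {G : Type*} [Group G] {φ : G →* Equiv.Perm ℕ} {γ : ℕ → G}
    (M : Model φ γ 11 x_ns x_ts) : ChainSound φ (gp γ [18, 20]) 11 [] sc_ls :=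
  ⟨Level.ok_sound' M sc_l0_ok,
   Level.okT_sound M sc_l1_ok, trivial⟩
theorem s_mem {G : Type*} [Group G] {φ : G →* Equiv.Perm ℕ} {γ : ℕ → G}
    (C : Cert φ γ 11 x_ns x_ts [0, 2, 4, 6, 8, 10, 12, 14, 16, 18, 20, 22, 24, 26, 28, 30] c2_ls) : ∀ x ∈ gp γ [18, 20], ∃ e ∈ s_E, ev (ext γ) e = x :=
  haveI := C.fin
  fun _ => mem_list C.M C.base (by decide +kernel) (by decide +kernel) (closB_append s_cl0 (closB_append s_cl1 (closB_append s_cl2 (closB_append s_cl3 (closB_append s_cl4 (closB_append s_cl5 (closB_append s_cl6 s_cl7)))))))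
theorem s_gd {G : Type*} [Group G] {φ : G →* Equiv.Perm ℕ} {γ : ℕ → G}
    (C : Cert φ γ 11 x_ns x_ts [0, 2, 4, 6, 8, 10, 12, 14, 16, 18, 20, 22, 24, 26, 28, 30] c2_ls) : AllGd γ (ev (ext γ) [30]) s_E := by
  have h : AllGd γ _ s_R := (show s_P1.map Prod.fst = s_R by decide +kernel) ▸ (allGd_sqW _ _).cj C.M C.base s_cj
  exact (show (s_Q0.map Prod.fst ++ (s_Q1.map Prod.fst ++ (s_Q2.map Prod.fst ++ (s_Q3.map Prod.fst ++ (s_Q4.map Prod.fst ++ (s_Q5.map Prod.fst ++ (s_Q6.map Prod.fst ++ s_Q7.map Prod.fst))))))) = s_E by decide +kernel) ▸ (AllGd.append (h.cj C.M C.base s_cj0) (AllGd.append (h.cj C.M C.base s_cj1) (AllGd.append (h.cj C.M C.base s_cj2) (AllGd.append (h.cj C.M C.base s_cj3) (AllGd.append (h.cj C.M C.base s_cj4) (AllGd.append (h.cj C.M C.base s_cj5) (AllGd.append (h.cj C.M C.base s_cj6) (h.cj C.M C.base s_cj7))))))))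
theorem cover {G : Type*} [Group G] {φ : G →* Equiv.Perm ℕ} {γ : ℕ → G}
    (C : Cert φ γ 11 x_ns x_ts [0, 2, 4, 6, 8, 10, 12, 14, 16, 18, 20, 22, 24, 26, 28, 30] c2_ls) :
    ∃ x : G, Odd (orderOf x) ∧ ∀ g : G, g ≠ 1 → ∃ u v : G, g = (u * x * u⁻¹) * (v * x * v⁻¹) := by
  have := C.fin
  have h := (sc_sound C.M).le_card
  rw [St_nil] at h
  refine cover_tits (C.card.trans (by decide +kernel)) (P := gp γ [18, 20]) ((ev_pw _ _ 13).symm.trans
    (eqB_sound C.M C.base (by decide +kernel) trivial trivial (v := []) (by decide +kernel)))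
    (ne_one_of_ap C.M (v := []) (b := 27) (by decide +kernel) (by decide +kernel))
    (le_antisymm ((card_le_of_list (s_mem C)).trans_eq (by decide +kernel)) (Eq.trans_le (by decide +kernel) h))
    (fun g hg => ?_) (p_syl C) (q_syl C) (cb_gd C) (cc_gd C) (ca_gd C)
  obtain ⟨e, he, rfl⟩ := s_mem C g hg
  exact s_gd C e he

end Cfsg.Agent.TitsQ
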