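import Cfsg.Agent.TitsQ.ExtD

set_option autoImplicit false
set_option Elab.async false
set_option maxRecDepth 100000
set_option linter.all false

namespace Cfsg.Agent.TitsQ
open Cfsg.Agent.CGT

open Cfsg.Agent.Inv

theorem x_t22_b : Tab.beq (mkTab 11 4 x_ns 22) x_t22 = true := by decide +kernel
theorem x_t23_b : Tab.beq (mkTab 11 4 x_ns 23) x_t23 = true := by decide +kernel
theorem x_t24_b : Tab.beq (mkTab 11 4 x_ns 24) x_t24 = true := by decide +kernel
theorem x_t25_b : Tab.beq (mkTab 11 4 x_ns 25) x_t25 = true := by decide +kernel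
theorem x_t26_b : Tab.beq (mkTab 11 4 x_ns 26) x_t26 = true := by decide +kernel
theorem x_t27_b : Tab.beq (mkTab 11 4 x_ns 27) x_t27 = true := by decide +kernel
theorem x_t28_b : Tab.beq (mkTab 11 4 x_ns 28) x_t28 = true := by decide +kernel
theorem x_t29_b : Tab.beq (mkTab 11 4 x_ns 29) x_t29 = true := by decide +kernel
theorem x_t30_b : Tab.beq (mkTab 11 4 x_ns 30) x_t30 = true := by decide +kernel
theorem x_t31_b : Tab.beq (mkTab 11 4 x_ns 31) x_t31 = true := by decide +kernel
theorem x_e0 : extJ 11 TitsC.m_ns x_ns x_W 0 = true := by decide +kernel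
theorem x_e1 : extJ 11 TitsC.m_ns x_ns x_W 1 = true := by decide +kernel
theorem x_e2 : extJ 11 TitsC.m_ns x_ns x_W 2 = true := by decide +kernel
theorem x_e3 : extJ 11 TitsC.m_ns x_ns x_W 3 = true := by decide +kernel
theorem x_e4 : extJ 11 TitsC.m_ns x_ns x_W 4 = true := by decide +kernel
theorem x_e5 : extJ 11 TitsC.m_ns x_ns x_W 5 = true := by decide +kernel

end Cfsg.Agent.TitsQ
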