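import Cfsg.Agent.TitsQ.ExtD

set_option autoImplicit false
set_option Elab.async false
set_option maxRecDepth 100000
set_option linter.all false

namespace Cfsg.Agent.TitsQ
open Cfsg.Agent.CGT

open Cfsg.Agent.Inv

theorem x_e6 : extJ 11 TitsC.m_ns x_ns x_W 6 = true := by decide +kernel
theorem x_e7 : extJ 11 TitsC.m_ns x_ns x_W 7 = true := by decide +kernel
theorem x_e8 : extJ 11 TitsC.m_ns x_ns x_W 8 = true := by decide +kernel
theorem x_e9 : extJ 11 TitsC.m_ns x_ns x_W 9 = true := by decide +kernel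
theorem x_e10 : extJ 11 TitsC.m_ns x_ns x_W 10 = true := by decide +kernel
theorem x_e11 : extJ 11 TitsC.m_ns x_ns x_W 11 = true := by decide +kernel
theorem x_e12 : extJ 11 TitsC.m_ns x_ns x_W 12 = true := by decide +kernel
theorem x_e13 : extJ 11 TitsC.m_ns x_ns x_W 13 = true := by decide +kernel
theorem x_e14 : extJ 11 TitsC.m_ns x_ns x_W 14 = true := by decide +kernel
theorem x_e15 : extJ 11 TitsC.m_ns x_ns x_W 15 = true := by decide +kernel
theorem c2_l0_ok : (ptsOK 11 [] && (wordsIn [0, 2, 4, 6, 8, 10, 12, 14, 16, 18, 20, 22, 24, 26, 28, 30] c2_l0.S && c2_l0.ok 11 x_ns x_ts [])) = true := by decide +kernel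
theorem c2_l1_ok : c2_l1.okT 11 x_ts [0, 2, 4, 6, 8, 10, 12, 14, 16, 18, 20, 22, 24, 26, 28, 30] [0] (.cons [0] (.cons [2] (.cons [2] (.cons [4] .nil .nil) (.cons [4] (.cons [3] (.cons [0] .nil .nil) .nil) .nil)) (.cons [3] (.cons [8] .nil .nil) .nil)) .nil) = true := by decide +kernel
theorem c2_l2_ok : c2_l2.okT 11 x_ts [0, 2, 4, 6, 8, 10, 12, 14, 16, 18, 20, 22, 24, 26, 28, 30] [1, 0] (.cons [0] (.cons [0] (.cons [2] .nil .nil) (.cons [2] (.cons [1] .nil .nil) .nil)) (.cons [1] (.cons [6] .nil .nil) .nil)) = true := by decide +kernel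
theorem c2_l3_ok : c2_l3.okT 11 x_ts [0, 2, 4, 6, 8, 10, 12, 14, 16, 18, 20, 22, 24, 26, 28, 30] [3, 1, 0] (.cons [0] .nil .nil) = true := by decide +kernel
theorem c2_l4_ok : c2_l4.okT 11 x_ts [0, 2, 4, 6, 8, 10, 12, 14, 16, 18, 20, 22, 24, 26, 28, 30] [7, 3, 1, 0] (.cons [0] (.cons [2] .nil (.cons [3] .nil .nil)) (.cons [2] .nil (.cons [3] (.cons [3] (.cons [0] .nil .nil) .nil) .nil))) = true := by decide +kernel
theorem c2_l5_ok : c2_l5.okT 11 x_ts [0, 2, 4, 6, 8, 10, 12, 14, 16, 18, 20, 22, 24, 26, 28, 30] [11, 7, 3, 1, 0] (.cons [0] .nil (.cons [2] (.cons [0] .nil .nil) .nil)) = true := by decide +kernel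

end Cfsg.Agent.TitsQ
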