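import Cfsg.Agent.TitsQ.ExtD

set_option autoImplicit false
set_option Elab.async false
set_option maxRecDepth 100000
set_option linter.all false

namespace Cfsg.Agent.TitsQ
open Cfsg.Agent.CGT

open Cfsg.Agent.Inv

theorem c2_l6_ok : c2_l6.okT 11 x_ts [0, 2, 4, 6, 8, 10, 12, 14, 16, 18, 20, 22, 24, 26, 28, 30] [43, 11, 7, 3, 1, 0] (.cons [0] .nil .nil) = true := by decide +kernel

end Cfsg.Agent.TitsQ
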