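import Cfsg.Agent.TitsQ.ExtD

set_option autoImplicit false
set_option Elab.async false
set_option maxRecDepth 100000
set_option linter.all false

namespace Cfsg.Agent.TitsQ
open Cfsg.Agent.CGT

open Cfsg.Agent.Inv

theorem x_p : Holds (lp x_ns) x_R := holdsB_sound x_v (by decide +kernel)
theorem x_t0_b : Tab.beq (mkTab 11 4 x_ns 0) x_t0 = true := by decide +kernel
theorem x_t2_b : Tab.beq (mkTab 11 4 x_ns 2) x_t2 = true := by decide +kernel
theorem x_t4_b : Tab.beq (mkTab 11 4 x_ns 4) x_t4 = true := by decide +kernel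
theorem x_t5_b : Tab.beq (mkTab 11 4 x_ns 5) x_t5 = true := by decide +kernel
theorem x_t6_b : Tab.beq (mkTab 11 4 x_ns 6) x_t6 = true := by decide +kernel
theorem x_t7_b : Tab.beq (mkTab 11 4 x_ns 7) x_t7 = true := by decide +kernel
theorem x_t8_b : Tab.beq (mkTab 11 4 x_ns 8) x_t8 = true := by decide +kernel
theorem x_t10_b : Tab.beq (mkTab 11 4 x_ns 10) x_t10 = true := by decide +kernel
theorem x_t11_b : Tab.beq (mkTab 11 4 x_ns 11) x_t11 = true := by decide +kernel
theorem x_t12_b : Tab.beq (mkTab 11 4 x_ns 12) x_t12 = true := by decide +kernel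
theorem x_t14_b : Tab.beq (mkTab 11 4 x_ns 14) x_t14 = true := by decide +kernel
theorem x_t16_b : Tab.beq (mkTab 11 4 x_ns 16) x_t16 = true := by decide +kernel
theorem x_t18_b : Tab.beq (mkTab 11 4 x_ns 18) x_t18 = true := by decide +kernel
theorem x_t20_b : Tab.beq (mkTab 11 4 x_ns 20) x_t20 = true := by decide +kernel
theorem x_t21_b : Tab.beq (mkTab 11 4 x_ns 21) x_t21 = true := by decide +kernel

end Cfsg.Agent.TitsQ
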