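import Cfsg.Agent.TitsQ.TwoD

set_option autoImplicit false
set_option Elab.async false
set_option maxRecDepth 100000
set_option linter.all false

namespace Cfsg.Agent.TitsQ
open Cfsg.Agent.CGT

open Cfsg.Agent.Inv

open Cfsg.Agent.TwC

theorem sc_l0_ok : (ptsOK 11 [] && (wordsIn [18, 20] sc_l0.S && sc_l0.ok 11 x_ns x_ts [])) = true := by decide +kernel
theorem sc_l1_ok : sc_l1.okT 11 x_ts [18, 20] [107] (.cons [0] .nil .nil) = true := by decide +kernel
theorem s_cj : cjB 11 x_ts (chainBase [] c2_ls) (sqW [30] r_W) s_P1 = true := by decide +kernel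
theorem s_cl0 : closB 11 x_ts (chainBase [] c2_ls) [18, 20] s_E s_T0 = true := by decide +kernel
theorem s_cj0 : cjB 11 x_ts (chainBase [] c2_ls) s_R s_Q0 = true := by decide +kernel
theorem s_cl1 : closB 11 x_ts (chainBase [] c2_ls) [18, 20] s_E s_T1 = true := by decide +kernel

end Cfsg.Agent.TitsQ
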